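import Mathlib
import Cfsg.Agent.Lib.helper15.RankTwo3
import Cfsg.Agent.Lib.lead.S1456M4
import Cfsg.Agent.Lib.helper21.S1455V1

set_option autoImplicit false

/-!
Relative core of part (2) of S1454: if `T ≤ R` is normalized by `N_G(R)`, of index at most `p`
in the `p`-group `R`, and some `e ∈ R ∖ T` of order dividing `p` has only small elementary abelian
subgroups in its centralizer, then `a ^ (p - 1)` centralizes `R` for every `p'`-element `a` of
`N_G(R)`.
-/

namespace Cfsg.Agent.Lib.helper21.S1454F2a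

open scoped commutatorElement

theorem coprime_step {Γ : Type*} [Group Γ] [Finite Γ] (p : ℕ) [Fact p.Prime]
    (P D M : Subgroup Γ) (hP : IsPGroup p P) (hMP : M ≤ P) (g : Γ)
    (hgp : (orderOf g).Coprime p) (hg1 : g ∈ Subgroup.centralizer (M : Set Γ))
    (hact : ∀ d ∈ D, ⁅g, d⁆ ∈ M) : g ∈ Subgroup.centralizer (D : Set Γ) := by
  rw [Subgroup.mem_centralizer_iff]
  intro d hd
  have hc := hact d hd
  rw [Subgroup.mem_centralizer_iff] at hg1
  have hcg : ⁅g, d⁆ * g = g * ⁅g, d⁆ := hg1 _ hc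
  have hconj : g * d * g⁻¹ = ⁅g, d⁆ * d := by rw [commutatorElement_def]; group
  have hpow : ∀ k : ℕ, g ^ k * d * (g ^ k)⁻¹ = ⁅g, d⁆ ^ k * d := by
    intro k
    induction k with
    | zero => simp
    | succ k ihk =>
      have hcg' : g * ⁅g, d⁆ ^ k = ⁅g, d⁆ ^ k * g := by
        have : Commute g ⁅g, d⁆ := hcg.symm
        exact (this.pow_right k).eq
      calc g ^ (k + 1) * d * (g ^ (k + 1))⁻¹ = g * (g ^ k * d * (g ^ k)⁻¹) * g⁻¹ := by
            rw [pow_succ']; group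
        _ = g * (⁅g, d⁆ ^ k * d) * g⁻¹ := by rw [ihk]
        _ = (g * ⁅g, d⁆ ^ k) * d * g⁻¹ := by group
        _ = ⁅g, d⁆ ^ k * (g * d * g⁻¹) := by rw [hcg']; group
        _ = ⁅g, d⁆ ^ k * (⁅g, d⁆ * d) := by rw [hconj]
        _ = ⁅g, d⁆ ^ (k + 1) * d := by rw [pow_succ]; group
  have h1 := hpow (orderOf g)
  rw [pow_orderOf_eq_one] at h1
  have h2 : ⁅g, d⁆ ^ orderOf g = 1 := by
    have : d = ⁅g, d⁆ ^ orderOf g * d := by simpa using h1
    exact (mul_eq_right.mp this.symm)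
  have hcP : ⁅g, d⁆ ∈ P := hMP hc
  obtain ⟨j, hj⟩ := hP ⟨⁅g, d⁆, hcP⟩
  have hj' : ⁅g, d⁆ ^ p ^ j = 1 := by
    have := congrArg Subtype.val hj
    simpa using this
  have hcop : (orderOf g).Coprime (p ^ j) := Nat.Coprime.pow_right j hgp
  have h3 : orderOf ⁅g, d⁆ ∣ 1 := by
    have hd1 := orderOf_dvd_of_pow_eq_one h2
    have hd2 := orderOf_dvd_of_pow_eq_one hj'
    have := Nat.dvd_gcd hd1 hd2
    rwa [hcop] at this
  have h4 : ⁅g, d⁆ = 1 := orderOf_eq_one_iff.mp (Nat.dvd_one.mp h3)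
  rw [commutatorElement_eq_one_iff_mul_comm] at h4
  exact h4.symm

theorem core_normal {Γ : Type*} [Group Γ] [Finite Γ] (p : ℕ) [Fact p.Prime] (hp : p ≠ 2)
    (P T : Subgroup Γ) [P.Normal] [T.Normal] (hP : IsPGroup p P) (hTP : T ≤ P)
    (hidx : Nat.card P ≤ p * Nat.card T) (e : Γ) (heP : e ∈ P) (hep : e ^ p = 1) (heT : e ∉ T)
    (hr : ∀ B : Subgroup Γ, B ≤ P → (∀ b ∈ B, b * e = e * b) →
      (∀ a ∈ B, ∀ b ∈ B, a * b = b * a) → (∀ b ∈ B, b ^ p = 1) → Nat.card B ≤ p ^ 2) :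
    ∀ g : Γ, (orderOf g).Coprime p → g ^ (p - 1) ∈ Subgroup.centralizer (P : Set Γ) := by
  intro g hg
  have hTn : T.Normal := inferInstance
  have hTtop : Subgroup.normalizer (T : Set Γ) = ⊤ := Subgroup.normalizer_eq_top_iff.mpr hTn
  obtain ⟨D, hDT, hDexp, hDcl, hDnorm, hDcrit⟩ :=
    Cfsg.Agent.Lib.helper15.GL2D.exists_critical p hp T (hP.to_le hTP)
  rw [hTtop] at hDnorm
  have hDn : D.Normal := Subgroup.normalizer_eq_top_iff.mp (top_le_iff.mp hDnorm)
  have heD : e ∉ D := fun h => heT (hDT h)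
  have hfix := Cfsg.Agent.Lib.lead.S1456M4.fix_card_le p P D hP (hDT.trans hTP) hDexp e heP hep
    heD hr
  have h1 := Cfsg.Agent.Lib.helper21.S1455V1.pow_cent_of_small_fix p P D hP (hDT.trans hTP) e heP
    hfix g hg
  have hcop' : (orderOf (g ^ (p - 1))).Coprime p :=
    Nat.Coprime.coprime_dvd_left (orderOf_pow_dvd (p - 1)) hg
  have h2 : g ^ (p - 1) ∈ Subgroup.centralizer (T : Set Γ) :=
    hDcrit _ (by rw [hTtop]; exact Subgroup.mem_top _) hcop' h1
  have h3 := Cfsg.Agent.Lib.helper21.S1455V1.pow_mem_of_card_le p P T hP hTP hidx g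
  exact coprime_step p P P T hP hTP _ hcop' h2 h3

theorem rel_core {G : Type*} [Group G] [Finite G] (p : ℕ) [Fact p.Prime] (hp : p ≠ 2)
    (R T : Subgroup G) (hR : IsPGroup p R) (hTR : T ≤ R)
    (hNT : Subgroup.normalizer (R : Set G) ≤ Subgroup.normalizer (T : Set G))
    (hidx : Nat.card R ≤ p * Nat.card T) (e : G) (heR : e ∈ R) (hep : e ^ p = 1) (heT : e ∉ T)
    (hr : ∀ B : Subgroup G, B ≤ R → (∀ b ∈ B, b * e = e * b) →
      (∀ a ∈ B, ∀ b ∈ B, a * b = b * a) → (∀ b ∈ B, b ^ p = 1) → Nat.card B ≤ p ^ 2) :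
    ∀ a ∈ Subgroup.normalizer (R : Set G), (orderOf a).Coprime p →
      a ^ (p - 1) ∈ Subgroup.centralizer (R : Set G) := by
  intro a ha hcop
  have hRN : R ≤ Subgroup.normalizer (R : Set G) := Subgroup.le_normalizer
  have hTN : T ≤ Subgroup.normalizer (R : Set G) := hTR.trans hRN
  haveI hPn : (R.subgroupOf (Subgroup.normalizer (R : Set G))).Normal :=
    Subgroup.normal_in_normalizer
  haveI hTn : (T.subgroupOf (Subgroup.normalizer (R : Set G))).Normal :=
    (Subgroup.normal_subgroupOf_iff_le_normalizer hTN).mpr hNT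
  have hP' : IsPGroup p (R.subgroupOf (Subgroup.normalizer (R : Set G))) := hR.comap_subtype
  have hTP' : T.subgroupOf (Subgroup.normalizer (R : Set G)) ≤
      R.subgroupOf (Subgroup.normalizer (R : Set G)) := Subgroup.comap_mono hTR
  have hcR : Nat.card (R.subgroupOf (Subgroup.normalizer (R : Set G))) = Nat.card R :=
    Nat.card_congr (Subgroup.subgroupOfEquivOfLe hRN).toEquiv
  have hcT : Nat.card (T.subgroupOf (Subgroup.normalizer (R : Set G))) = Nat.card T :=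
    Nat.card_congr (Subgroup.subgroupOfEquivOfLe hTN).toEquiv
  have hidx' : Nat.card (R.subgroupOf (Subgroup.normalizer (R : Set G))) ≤
      p * Nat.card (T.subgroupOf (Subgroup.normalizer (R : Set G))) := by
    rw [hcR, hcT]; exact hidx
  have hr' : ∀ B : Subgroup ↥(Subgroup.normalizer (R : Set G)),
      B ≤ R.subgroupOf (Subgroup.normalizer (R : Set G)) →
      (∀ b ∈ B, b * (⟨e, hRN heR⟩ : ↥(Subgroup.normalizer (R : Set G))) = ⟨e, hRN heR⟩ * b) →
      (∀ a ∈ B, ∀ b ∈ B, a * b = b * a) → (∀ b ∈ B, b ^ p = 1) → Nat.card B ≤ p ^ 2 := by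
    intro B hBP hBe hBc hBp
    have hcard : Nat.card (B.map (Subgroup.normalizer (R : Set G)).subtype) = Nat.card B :=
      Subgroup.card_map_of_injective (Subgroup.subtype_injective _)
    rw [← hcard]
    apply hr
    · rintro x ⟨b, hb, rfl⟩
      exact Subgroup.mem_subgroupOf.mp (hBP hb)
    · rintro x ⟨b, hb, rfl⟩
      exact congrArg Subtype.val (hBe b hb)
    · rintro x ⟨b, hb, rfl⟩ y ⟨c, hc, rfl⟩
      exact congrArg Subtype.val (hBc b hb c hc)
    · rintro x ⟨b, hb, rfl⟩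
      exact congrArg Subtype.val (hBp b hb)
  have hmain := core_normal p hp (R.subgroupOf (Subgroup.normalizer (R : Set G)))
    (T.subgroupOf (Subgroup.normalizer (R : Set G))) hP' hTP' hidx'
    (⟨e, hRN heR⟩ : ↥(Subgroup.normalizer (R : Set G))) (Subgroup.mem_subgroupOf.mpr heR)
    (Subtype.ext hep) (fun h => heT (Subgroup.mem_subgroupOf.mp h)) hr'
    (⟨a, ha⟩ : ↥(Subgroup.normalizer (R : Set G))) (by rw [Subgroup.orderOf_mk]; exact hcop)
  rw [Subgroup.mem_centralizer_iff] at hmain ⊢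
  intro r hr0
  have := hmain (⟨r, hRN hr0⟩ : ↥(Subgroup.normalizer (R : Set G)))
    (Subgroup.mem_subgroupOf.mpr hr0)
  exact congrArg Subtype.val this

end Cfsg.Agent.Lib.helper21.S1454F2a
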