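import Mathlib
import Cfsg.Agent.S1453
import Cfsg.Agent.Lib.helper13.S1454N0
import Cfsg.Agent.Lib.helper14.S1456M1
import Cfsg.Agent.Lib.helper21.S1454F2a

set_option autoImplicit false

/-!
Piece (F2) of the S1454 split project (helper15's relative signatures): for a narrow `p`-subgroup
`R` of rank at least 3 (`p` odd), the `(p-1)`-st power of every `p'`-element of `N_G(R)`
centralizes `R`.
-/

namespace Cfsg.Agent.Lib.helper21.S1454F2

theorem narrow_pow_centralizes {G : Type*} [Group G] [Finite G] (p : ℕ) [Fact p.Prime]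
    (hp : p ≠ 2) (R : Subgroup G) (hR : IsPGroup p R) (hRn : Cfsg.IsNarrow p R)
    (hr3 : ¬ Cfsg.PRankLE p 2 R) :
    ∀ a ∈ Subgroup.normalizer (R : Set G), (orderOf a).Coprime p →
      a ^ (p - 1) ∈ Subgroup.centralizer (R : Set G) := by
  have hpp : p.Prime := Fact.out
  obtain ⟨E, hER, hEc, hEp, hrE⟩ := Cfsg.Agent.Lib.helper13.S1454N0.narrow_data p R hRn
  obtain ⟨e, heR, hep, hre⟩ :=
    Cfsg.Agent.Lib.helper14.S1456M1.exists_small_centralizer p R hR E hER hEc hEp hrE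
  -- transfer of the rank bound for subgroups of `↥R`
  have hsub : ∀ B : Subgroup ↥R, (∀ b ∈ B, b * (⟨e, heR⟩ : ↥R) = ⟨e, heR⟩ * b) →
      (∀ a ∈ B, ∀ b ∈ B, a * b = b * a) → (∀ b ∈ B, b ^ p = 1) → Nat.card B ≤ p ^ 2 := by
    intro B hBe hBc hBp
    have hcard : Nat.card (B.map R.subtype) = Nat.card B :=
      Subgroup.card_map_of_injective (Subgroup.subtype_injective _)
    rw [← hcard]
    apply hre
    · rintro x ⟨b, hb, rfl⟩
      exact b.2
    · rintro x ⟨b, hb, rfl⟩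
      exact congrArg Subtype.val (hBe b hb)
    · rintro x ⟨b, hb, rfl⟩ y ⟨c, hc, rfl⟩
      exact congrArg Subtype.val (hBc b hb c hc)
    · rintro x ⟨b, hb, rfl⟩
      exact congrArg Subtype.val (hBp b hb)
  -- `e` is not central in `R`
  have hne : (⟨e, heR⟩ : ↥R) ∉ Subgroup.center ↥R := by
    intro hcen
    apply hr3
    intro A' hA'c hA'p
    apply hsub A'
    · intro b _
      exact (Subgroup.mem_center_iff.mp hcen b)
    · intro a ha b hb
      have := hA'c.is_comm.comm (⟨a, ha⟩ : ↥A') ⟨b, hb⟩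
      exact congrArg Subtype.val this
    · exact hA'p
  have he1 : (⟨e, heR⟩ : ↥R) ≠ 1 := fun h => hne (h ▸ Subgroup.one_mem _)
  have hep' : (⟨e, heR⟩ : ↥R) ^ p = 1 := Subtype.ext hep
  have hoe : orderOf (⟨e, heR⟩ : ↥R) = p := orderOf_eq_prime hep' he1
  -- a central element of order `p`
  haveI : Nontrivial ↥R := ⟨⟨⟨e, heR⟩, 1, he1⟩⟩
  haveI : Nontrivial (Subgroup.center ↥R) := hR.center_nontrivial
  obtain ⟨z₀, hz₀⟩ : ∃ z₀ : ↥(Subgroup.center ↥R), orderOf z₀ = p := by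
    have hcp : IsPGroup p ↥(Subgroup.center ↥R) := hR.to_subgroup _
    rcases hcp.card_eq_or_dvd with h1 | h1
    · exact absurd h1 (ne_of_gt Finite.one_lt_card)
    · exact exists_prime_orderOf_dvd_card' p h1
  have hzc : (z₀ : ↥R) ∈ Subgroup.center ↥R := z₀.2
  have hoz : orderOf (z₀ : ↥R) = p := by rw [Subgroup.orderOf_coe]; exact hz₀
  have hzp : (z₀ : ↥R) ^ p = 1 := by rw [← hoz]; exact pow_orderOf_eq_one _
  have hzcomm : ∀ g : ↥R, Commute g (z₀ : ↥R) := fun g => Subgroup.mem_center_iff.mp hzc g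
  haveI hzn : (Subgroup.zpowers (z₀ : ↥R)).Normal := by
    constructor
    intro n hn g
    obtain ⟨k, rfl⟩ := Subgroup.mem_zpowers_iff.mp hn
    have hc : g * (z₀ : ↥R) ^ k = (z₀ : ↥R) ^ k * g := ((hzcomm g).zpow_right k).eq
    rw [hc, mul_inv_cancel_right]
    exact Subgroup.zpow_mem_zpowers _ k
  -- the elementary abelian subgroup `E' = ⟨e⟩ ⟨z⟩`
  have hE'mem : ∀ x ∈ Subgroup.zpowers (⟨e, heR⟩ : ↥R) ⊔ Subgroup.zpowers (z₀ : ↥R),
      ∃ i j : ℤ, x = (⟨e, heR⟩ : ↥R) ^ i * (z₀ : ↥R) ^ j := by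
    intro x hx
    have hx' : x ∈ ((Subgroup.zpowers (⟨e, heR⟩ : ↥R) ⊔ Subgroup.zpowers (z₀ : ↥R) :
        Subgroup ↥R) : Set ↥R) := hx
    rw [Subgroup.mul_normal] at hx'
    obtain ⟨h, hh, n, hn, rfl⟩ := Set.mem_mul.mp hx'
    obtain ⟨i, rfl⟩ := Subgroup.mem_zpowers_iff.mp hh
    obtain ⟨j, rfl⟩ := Subgroup.mem_zpowers_iff.mp hn
    exact ⟨i, j, rfl⟩
  have hE'e : ∀ x ∈ Subgroup.zpowers (⟨e, heR⟩ : ↥R) ⊔ Subgroup.zpowers (z₀ : ↥R),
      Commute x (⟨e, heR⟩ : ↥R) := by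
    intro x hx
    obtain ⟨i, j, rfl⟩ := hE'mem x hx
    exact ((Commute.refl _).zpow_left i).mul_left ((hzcomm _).symm.zpow_left j)
  have hE'c : ∀ x ∈ Subgroup.zpowers (⟨e, heR⟩ : ↥R) ⊔ Subgroup.zpowers (z₀ : ↥R),
      ∀ y ∈ Subgroup.zpowers (⟨e, heR⟩ : ↥R) ⊔ Subgroup.zpowers (z₀ : ↥R), x * y = y * x := by
    intro x hx y hy
    obtain ⟨i, j, rfl⟩ := hE'mem y hy
    exact (((hE'e x hx).zpow_right i).mul_right ((hzcomm x).zpow_right j)).eq
  have hE'p : ∀ x ∈ Subgroup.zpowers (⟨e, heR⟩ : ↥R) ⊔ Subgroup.zpowers (z₀ : ↥R),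
      x ^ p = 1 := by
    intro x hx
    obtain ⟨i, j, rfl⟩ := hE'mem x hx
    have hc : Commute ((⟨e, heR⟩ : ↥R) ^ i) ((z₀ : ↥R) ^ j) := ((hzcomm _).zpow_right j)
    rw [hc.mul_pow, ← zpow_natCast, ← zpow_natCast, ← zpow_mul, ← zpow_mul, mul_comm i,
      mul_comm j, zpow_mul, zpow_mul, zpow_natCast, zpow_natCast, hep', hzp, one_zpow, one_zpow,
      one_mul]
  have hE'le : Nat.card ↥(Subgroup.zpowers (⟨e, heR⟩ : ↥R) ⊔ Subgroup.zpowers (z₀ : ↥R)) ≤
      p ^ 2 := hsub _ (fun b hb => (hE'e b hb).eq) hE'c hE'p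
  have hE'ge : p ^ 2 ≤ Nat.card ↥(Subgroup.zpowers (⟨e, heR⟩ : ↥R) ⊔
      Subgroup.zpowers (z₀ : ↥R)) := by
    obtain ⟨k, hk⟩ := IsPGroup.iff_card.mp (hR.to_subgroup
      (Subgroup.zpowers (⟨e, heR⟩ : ↥R) ⊔ Subgroup.zpowers (z₀ : ↥R)))
    rw [hk]
    apply Nat.pow_le_pow_right hpp.pos
    by_contra hk2
    have hk1 : k ≤ 1 := by omega
    have hle : Nat.card ↥(Subgroup.zpowers (⟨e, heR⟩ : ↥R) ⊔ Subgroup.zpowers (z₀ : ↥R)) ≤ p := by
      rw [hk]
      calc p ^ k ≤ p ^ 1 := Nat.pow_le_pow_right hpp.pos hk1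
        _ = p := pow_one p
    have hce : Nat.card ↥(Subgroup.zpowers (⟨e, heR⟩ : ↥R)) = p := by
      rw [Nat.card_zpowers, hoe]
    have hcz : Nat.card ↥(Subgroup.zpowers (z₀ : ↥R)) = p := by
      rw [Nat.card_zpowers, hoz]
    have h1 : Subgroup.zpowers (⟨e, heR⟩ : ↥R) =
        Subgroup.zpowers (⟨e, heR⟩ : ↥R) ⊔ Subgroup.zpowers (z₀ : ↥R) :=
      Subgroup.eq_of_le_of_card_ge le_sup_left (by rw [hce]; exact hle)
    have h2 : Subgroup.zpowers (z₀ : ↥R) =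
        Subgroup.zpowers (⟨e, heR⟩ : ↥R) ⊔ Subgroup.zpowers (z₀ : ↥R) :=
      Subgroup.eq_of_le_of_card_ge le_sup_right (by rw [hcz]; exact hle)
    have h3 : (⟨e, heR⟩ : ↥R) ∈ Subgroup.zpowers (z₀ : ↥R) := by
      rw [h2, ← h1]; exact Subgroup.mem_zpowers _
    obtain ⟨m, hm⟩ := Subgroup.mem_zpowers_iff.mp h3
    apply hne
    rw [← hm]
    exact Subgroup.zpow_mem _ hzc m
  have hE'card : Nat.card ↥(Subgroup.zpowers (⟨e, heR⟩ : ↥R) ⊔ Subgroup.zpowers (z₀ : ↥R)) =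
      p ^ 2 := le_antisymm hE'le hE'ge
  have hE'ea : Cfsg.IsElementaryAbelian p
      (Subgroup.zpowers (⟨e, heR⟩ : ↥R) ⊔ Subgroup.zpowers (z₀ : ↥R)) :=
    ⟨⟨⟨fun a b => Subtype.ext (hE'c a a.2 b b.2)⟩⟩, hE'p⟩
  have hE'max : ∀ B : Subgroup ↥R, Cfsg.IsElementaryAbelian p B →
      Subgroup.zpowers (⟨e, heR⟩ : ↥R) ⊔ Subgroup.zpowers (z₀ : ↥R) ≤ B →
      B = Subgroup.zpowers (⟨e, heR⟩ : ↥R) ⊔ Subgroup.zpowers (z₀ : ↥R) := by
    intro B hB hle
    have heB : (⟨e, heR⟩ : ↥R) ∈ B := hle (Subgroup.mem_sup_left (Subgroup.mem_zpowers _))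
    have hBc : ∀ a ∈ B, ∀ b ∈ B, a * b = b * a := by
      intro a ha b hb
      have := hB.1.is_comm.comm (⟨a, ha⟩ : ↥B) ⟨b, hb⟩
      exact congrArg Subtype.val this
    have hBcard : Nat.card B ≤ p ^ 2 := hsub B (fun b hb => hBc b hb _ heB) hBc hB.2
    exact (Subgroup.eq_of_le_of_card_ge hle (by rw [hE'card]; exact hBcard)).symm
  obtain ⟨hnot, -, -, hchar, hidx⟩ := Cfsg.Agent.S1453.result (R := ↥R) p hp hR hr3
    (Subgroup.zpowers (⟨e, heR⟩ : ↥R) ⊔ Subgroup.zpowers (z₀ : ↥R)) hE'ea hE'card hE'max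
  -- abbreviate `T'`
  generalize hT' : Subgroup.centralizer ((Subgroup.closure
    {x : ↥R | x ∈ Subgroup.upperCentralSeries ↥R 2 ∧ x ^ p = 1} : Subgroup ↥R) : Set ↥R) = T'
    at hnot hchar hidx
  have hzT : (z₀ : ↥R) ∈ T' := by
    rw [← hT']; exact Subgroup.center_le_centralizer _ hzc
  have heT' : (⟨e, heR⟩ : ↥R) ∉ T' := by
    intro h
    exact hnot (sup_le ((Subgroup.zpowers_le).mpr h) ((Subgroup.zpowers_le).mpr hzT))
  -- transfer `T'` to `G`
  have hTR : T'.map R.subtype ≤ R := by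
    rintro x ⟨t, _, rfl⟩
    exact t.2
  have hcT : Nat.card (T'.map R.subtype) = Nat.card T' :=
    Subgroup.card_map_of_injective (Subgroup.subtype_injective _)
  have hidx' : Nat.card R ≤ p * Nat.card (T'.map R.subtype) := by
    rw [hcT, ← hidx, Subgroup.index_mul_card]
  have heT : e ∉ T'.map R.subtype := by
    rintro ⟨t, ht, hte⟩
    have : t = ⟨e, heR⟩ := Subtype.ext hte
    exact heT' (this ▸ ht)
  have hNT : Subgroup.normalizer (R : Set G) ≤
      Subgroup.normalizer ((T'.map R.subtype : Subgroup G) : Set G) := by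
    intro n hn
    have hn' := Subgroup.mem_normalizer_iff.mp hn
    let φ : ↥R ≃* ↥R :=
      { toFun := fun r => ⟨n * r * n⁻¹, (hn' r).mp r.2⟩
        invFun := fun r => ⟨n⁻¹ * r * n, (hn' (n⁻¹ * r * n)).mpr (by
          have : n * (n⁻¹ * (r : G) * n) * n⁻¹ = r := by group
          rw [this]; exact r.2)⟩
        left_inv := fun r => Subtype.ext (by
          show n⁻¹ * (n * (r : G) * n⁻¹) * n = r
          group)
        right_inv := fun r => Subtype.ext (by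
          show n * (n⁻¹ * (r : G) * n) * n⁻¹ = r
          group)
        map_mul' := fun r s => Subtype.ext (by
          show n * ((r : G) * (s : G)) * n⁻¹ = (n * (r : G) * n⁻¹) * (n * (s : G) * n⁻¹)
          group) }
    have hφ : ∀ t : ↥R, t ∈ T' ↔ φ t ∈ T' := by
      intro t
      have := Subgroup.characteristic_iff_comap_eq.mp hchar φ
      constructor
      · intro ht
        rw [← this] at ht
        exact ht
      · intro ht
        rw [← this]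
        exact ht
    rw [Subgroup.mem_normalizer_iff]
    intro h
    constructor
    · rintro ⟨t, ht, rfl⟩
      exact ⟨φ t, (hφ t).mp ht, rfl⟩
    · rintro ⟨t, ht, hte⟩
      refine ⟨φ.symm t, (hφ _).mpr (by rw [MulEquiv.apply_symm_apply]; exact ht), ?_⟩
      show n⁻¹ * (t : G) * n = h
      have : (t : G) = n * h * n⁻¹ := hte
      rw [this]; group
  exact Cfsg.Agent.Lib.helper21.S1454F2a.rel_core p hp R (T'.map R.subtype) hR hTR hNT hidx' e heR
    hep heT hre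

end Cfsg.Agent.Lib.helper21.S1454F2
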