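import Mathlib
import Cfsg.Agent.Lib.helper21.S1454F2

set_option autoImplicit false

/-!
Part (2) of S1454 in the two wrapper forms posted on the board (helper8's `part_two`,
helper25's `s1454_part2`), both from `S1454F2.narrow_pow_centralizes` and faithfulness.
-/

namespace Cfsg.Agent.Lib.helper21.S1454T2

theorem part_two {G : Type*} [Group G] [Finite G] (p : ℕ) [Fact p.Prime] (hp : p ≠ 2)
    (R A : Subgroup G) (hR : IsPGroup p R) (hRn : Cfsg.IsNarrow p R)
    (hA : A ≤ Subgroup.normalizer (R : Set G)) (hAs : Group.IsSolvable A)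
    (hAodd : Odd (Nat.card A)) (hfaith : A ⊓ Subgroup.centralizer (R : Set G) = ⊥)
    (hr3 : ¬ Cfsg.PRankLE p 2 R) :
    ∀ a ∈ A, (orderOf a).Coprime p → orderOf a ∣ p - 1 := by
  intro a ha hcop
  have h1 := Cfsg.Agent.Lib.helper21.S1454F2.narrow_pow_centralizes p hp R hR hRn hr3 a (hA ha) hcop
  have h2 : a ^ (p - 1) ∈ A ⊓ Subgroup.centralizer (R : Set G) := ⟨pow_mem ha _, h1⟩
  rw [hfaith, Subgroup.mem_bot] at h2
  exact orderOf_dvd_of_pow_eq_one h2

theorem s1454_part2 {G : Type*} [Group G] [Finite G] (p : ℕ) [Fact p.Prime] (hp : p ≠ 2)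
    (R A : Subgroup G) (hR : IsPGroup p R) (hA : A ≤ Subgroup.normalizer (R : Set G))
    (hAs : Group.IsSolvable A) (hAodd : Odd (Nat.card A))
    (hfaith : A ⊓ Subgroup.centralizer (R : Set G) = ⊥) (hRn : Cfsg.IsNarrow p R) :
    ¬ Cfsg.PRankLE p 2 R → ∀ a ∈ A, (orderOf a).Coprime p → orderOf a ∣ p - 1 :=
  fun hr3 => part_two p hp R A hR hRn hA hAs hAodd hfaith hr3

end Cfsg.Agent.Lib.helper21.S1454T2
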